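import Cfsg.Agent.Lib.StrongEmb.Basic
import Cfsg.Agent.Lib.Solvable.Hall
import Mathlib

/-!
# Factorisations `G = T H` with `T` an abelian 2-group and `H` of odd order

If `G = T H` with `T` an abelian 2-subgroup and `H` a subgroup of odd order and `G` has no
nontrivial normal subgroup of odd order, then `T` is normal (`normal_of_factor`).
-/

set_option autoImplicit false
set_option linter.unusedSectionVars false

namespace Cfsg.Agent.Lib.AbelTwo.Factor

open Cfsg Cfsg.Agent.Lib.StrongEmb.Basic Cfsg.Agent.Lib.Involutions.Dihedral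

universe u

section Basic

variable {G : Type*} [Group G] [Finite G]

instance fact_two : Fact (Nat.Prime 2) := ⟨Nat.prime_two⟩

/-- The configuration of a factorisation. -/
structure Config (T H : Subgroup G) : Prop where
  two : IsPGroup 2 T
  ab : ∀ x ∈ T, ∀ y ∈ T, x * y = y * x
  odd : Odd (Nat.card H)
  fac : ∀ g : G, ∃ t ∈ T, ∃ h ∈ H, g = t * h

theorem coprime_two_odd {P H : Subgroup G} (hP : IsPGroup 2 P) (hH : Odd (Nat.card H)) :
    (Nat.card P).Coprime (Nat.card H) := by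
  obtain ⟨n, hn⟩ := hP.exists_card_eq
  rw [hn]
  exact Nat.Coprime.pow_left _ (Nat.coprime_two_left.mpr hH)

theorem eq_one_of_two_odd {P H : Subgroup G} (hP : IsPGroup 2 P) (hH : Odd (Nat.card H)) {x : G}
    (h1 : x ∈ P) (h2 : x ∈ H) : x = 1 := by
  have := Subgroup.disjoint_of_coprime_natCard (coprime_two_odd hP hH)
  exact Subgroup.disjoint_def.mp this h1 h2

theorem Config.max {T H : Subgroup G} (hc : Config T H) {P : Subgroup G} (hP : IsPGroup 2 P)
    (hTP : T ≤ P) : P = T := by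
  refine le_antisymm ?_ hTP
  intro p hp
  obtain ⟨t, ht, h, hh, rfl⟩ := hc.fac p
  have h1 : h ∈ P := by
    have := P.mul_mem (P.inv_mem (hTP ht)) hp
    simpa using this
  have := eq_one_of_two_odd hP hc.odd h1 hh
  subst this
  simpa using ht

theorem Config.le_of_le_normalizer {T H : Subgroup G} (hc : Config T H) {S : Subgroup G}
    (hS : IsPGroup 2 S) (hSN : S ≤ Subgroup.normalizer (T : Set G)) : S ≤ T := by
  have h1 : IsPGroup 2 (S ⊔ T : Subgroup G) := hS.to_sup_of_normal_right' hc.two hSN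
  have h2 := hc.max h1 le_sup_right
  exact h2 ▸ (le_sup_left : S ≤ S ⊔ T)

theorem isPGroup_zpowers_of_sq {i : G} (hi : i ^ 2 = 1) : IsPGroup 2 (Subgroup.zpowers i) := by
  rintro ⟨_, k, rfl⟩
  refine ⟨1, ?_⟩
  apply Subtype.ext
  change (i ^ k) ^ (2 ^ 1) = 1
  rw [pow_one, ← zpow_natCast, ← zpow_mul, mul_comm, zpow_mul]
  simp [hi]

/-- An involution normalising `T` lies in `T`. -/
theorem Config.mem_of_sq {T H : Subgroup G} (hc : Config T H) {i : G} (hi : i ^ 2 = 1)
    (hiN : i ∈ Subgroup.normalizer (T : Set G)) : i ∈ T :=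
  hc.le_of_le_normalizer (isPGroup_zpowers_of_sq hi)
    ((Subgroup.zpowers_le).mpr hiN) (Subgroup.mem_zpowers i)

theorem mem_normalizer_of_map_conj_le {T : Subgroup G} {g : G}
    (h : T.map (MulAut.conj g).toMonoidHom ≤ T) : g ∈ Subgroup.normalizer (T : Set G) := by
  have hcard : Nat.card (T.map (MulAut.conj g).toMonoidHom) = Nat.card T :=
    Subgroup.card_map_of_injective (MulEquiv.injective _)
  have heq : T.map (MulAut.conj g).toMonoidHom = T :=
    Subgroup.eq_of_le_of_card_ge h hcard.ge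
  rw [Subgroup.mem_normalizer_iff]
  intro t
  constructor
  · intro ht
    exact h ⟨t, ht, rfl⟩
  · intro ht
    have h2 : g * t * g⁻¹ ∈ T.map (MulAut.conj g).toMonoidHom := by rw [heq]; exact ht
    obtain ⟨t', ht', h3⟩ := h2
    have h4 : g * t' * g⁻¹ = g * t * g⁻¹ := h3
    have : t' = t := by
      simpa using h4
    exact this ▸ ht'

/-- Every element is `h * t`. -/
theorem Config.fac' {T H : Subgroup G} (hc : Config T H) (g : G) :
    ∃ h ∈ H, ∃ t ∈ T, g = h * t := by
  obtain ⟨t, ht, h, hh, e⟩ := hc.fac g⁻¹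
  refine ⟨h⁻¹, H.inv_mem hh, t⁻¹, T.inv_mem ht, ?_⟩
  rw [← mul_inv_rev, ← e, inv_inv]

theorem card_subgroupOf_dvd (H X : Subgroup G) : Nat.card (H.subgroupOf X) ∣ Nat.card H := by
  let f : H.subgroupOf X →* H :=
    { toFun := fun x => ⟨x.1.1, x.2⟩
      map_one' := rfl
      map_mul' := fun _ _ => rfl }
  refine Subgroup.card_dvd_of_injective f ?_
  intro a b hab
  exact Subtype.ext (Subtype.ext (congrArg (fun y : H => (y : G)) hab))

/-- Restricting a factorisation to a subgroup containing `T`. -/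
theorem Config.subgroupOf {T H X : Subgroup G} (hc : Config T H) (hTX : T ≤ X) :
    Config (T.subgroupOf X) (H.subgroupOf X) := by
  refine ⟨hc.two.comap_subtype, ?_, ?_, ?_⟩
  · intro x hx y hy
    exact Subtype.ext (hc.ab _ hx _ hy)
  · refine Odd.of_dvd_nat hc.odd ?_
    exact card_subgroupOf_dvd H X
  · rintro ⟨g, hg⟩
    obtain ⟨t, ht, h, hh, rfl⟩ := hc.fac g
    have hhX : h ∈ X := by
      have := X.mul_mem (X.inv_mem (hTX ht)) hg
      simpa using this
    exact ⟨⟨t, hTX ht⟩, ht, ⟨h, hhX⟩, hh, rfl⟩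

/-- **Lemma 1'**: a normal subgroup of odd order lies in `H`. -/
theorem Config.le_of_normal_odd {T H : Subgroup G} (hc : Config T H) (N : Subgroup G) [N.Normal]
    (hN : Odd (Nat.card N)) : N ≤ H := by
  intro y hy
  obtain ⟨τ, hτ, h, hh, rfl⟩ := hc.fac y
  -- the image of `τ` modulo `N` is trivial
  have h1 : (QuotientGroup.mk' N) τ = (QuotientGroup.mk' N) h⁻¹ := by
    have : τ * h * h⁻¹ = τ := by group
    rw [← this, map_mul, map_mul, map_inv]
    have h2 : (QuotientGroup.mk' N) (τ * h) = 1 := by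
      rw [QuotientGroup.mk'_apply, QuotientGroup.eq_one_iff]
      exact hy
    rw [← map_mul, h2, one_mul]
  have hS : IsPGroup 2 ((T.map (QuotientGroup.mk' N))) := hc.two.map _
  have hO : Odd (Nat.card (H.map (QuotientGroup.mk' N))) :=
    Odd.of_dvd_nat hc.odd (Subgroup.card_map_dvd _ _)
  have h3 : (QuotientGroup.mk' N) τ = 1 :=
    eq_one_of_two_odd hS hO ⟨τ, hτ, rfl⟩ (h1 ▸ ⟨h⁻¹, H.inv_mem hh, rfl⟩)
  have h4 : τ ∈ N := by
    rwa [QuotientGroup.mk'_apply, QuotientGroup.eq_one_iff] at h3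
  have h5 : τ = 1 := eq_one_of_two_odd hc.two hN hτ h4
  subst h5
  simpa using hh

/-- **Step 1**: odd normal subgroups of `X ≥ T` are trivial. -/
theorem Config.odd_normal_subgroupOf {T H X : Subgroup G} (hc : Config T H) (hTX : T ≤ X)
    (hO : ∀ N : Subgroup G, N.Normal → Odd (Nat.card N) → N = ⊥) :
    ∀ N : Subgroup X, N.Normal → Odd (Nat.card N) → N = ⊥ := by
  intro N hN hNodd
  have hc' := hc.subgroupOf hTX
  have hle := hc'.le_of_normal_odd N hNodd
  -- the core of `H`
  have hcore : H.normalCore = ⊥ := by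
    refine hO _ inferInstance (Odd.of_dvd_nat hc.odd ?_)
    exact Subgroup.card_dvd_of_le (Subgroup.normalCore_le H)
  rw [eq_bot_iff]
  rintro ⟨y, hyX⟩ hy
  have hyH : ∀ t ∈ T, t * y * t⁻¹ ∈ H := by
    intro t ht
    have hm : (⟨t, hTX ht⟩ * ⟨y, hyX⟩ * (⟨t, hTX ht⟩ : X)⁻¹ : X) ∈ N := hN.conj_mem _ hy _
    exact hle hm
  have hycore : y ∈ H.normalCore := by
    intro b
    obtain ⟨h, hh, t, ht, rfl⟩ := hc.fac' b
    have := H.mul_mem (H.mul_mem hh (hyH t ht)) (H.inv_mem hh)
    convert this using 1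
    group
  rw [hcore, Subgroup.mem_bot] at hycore
  subst hycore
  exact Subgroup.mem_bot.mpr rfl

/-- A central 2-subgroup: a normal subgroup of odd order of `G ⧸ A` is trivial. -/
theorem odd_normal_quotient (hO : ∀ N : Subgroup G, N.Normal → Odd (Nat.card N) → N = ⊥)
    (A : Subgroup G) [A.Normal] (hA2 : IsPGroup 2 A) (hAc : ∀ a ∈ A, ∀ g : G, g * a = a * g) :
    ∀ W' : Subgroup (G ⧸ A), W'.Normal → Odd (Nat.card W') → W' = ⊥ := by
  intro W' hW' hW'odd
  let π := QuotientGroup.mk' A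
  let W : Subgroup G := W'.comap π
  have hWn : W.Normal := hW'.comap π
  have hAW : A ≤ W := by
    intro a ha
    change π a ∈ W'
    have : π a = 1 := by
      rw [QuotientGroup.mk'_apply, QuotientGroup.eq_one_iff]; exact ha
    rw [this]; exact W'.one_mem
  let f : W →* (G ⧸ A) := π.comp W.subtype
  let A' : Subgroup W := A.subgroupOf W
  have hkerf : f.ker = A' := by
    ext x
    change π (x : G) = 1 ↔ (x : G) ∈ A
    rw [QuotientGroup.mk'_apply, QuotientGroup.eq_one_iff]
  have hidx : Odd A'.index := by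
    rw [← hkerf, Subgroup.index_ker]
    refine Odd.of_dvd_nat hW'odd (Subgroup.card_dvd_of_le ?_)
    rintro _ ⟨x, rfl⟩
    exact x.2
  have hA'2 : IsPGroup 2 A' := hA2.comap_subtype
  have hcop : (Nat.card A').Coprime A'.index := by
    obtain ⟨n, hn⟩ := hA'2.exists_card_eq
    rw [hn]
    exact Nat.Coprime.pow_left _ (Nat.coprime_two_left.mpr hidx)
  have hA'n : A'.Normal := inferInstance
  obtain ⟨W₁, hW₁⟩ := Subgroup.exists_right_complement'_of_coprime hcop
  have hW₁card : Odd (Nat.card W₁) := by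
    rw [← hW₁.symm.index_eq_card]; exact hidx
  let Y : Subgroup G := W₁.map W.subtype
  have hYodd : Odd (Nat.card Y) := by
    have : Nat.card Y = Nat.card W₁ :=
      Subgroup.card_map_of_injective W.subtype_injective
    rwa [this]
  -- decomposition
  have hdec : ∀ w : W, ∃ a ∈ A', ∃ b ∈ W₁, a * b = w := by
    intro w
    obtain ⟨x, hx, -⟩ := Subgroup.IsComplement.existsUnique hW₁ w
    exact ⟨x.1.1, x.1.2, x.2.1, x.2.2, hx⟩
  have hYnormal : Y.Normal := by
    refine ⟨?_⟩
    rintro y ⟨w₁, hw₁, rfl⟩ g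
    have hyW : ((w₁ : W) : G) ∈ W := w₁.2
    have huW : g * (w₁ : G) * g⁻¹ ∈ W := hWn.conj_mem _ hyW g
    obtain ⟨a, ha, b, hb, hab⟩ := hdec ⟨_, huW⟩
    have hab' : (a : G) * (b : G) = g * (w₁ : G) * g⁻¹ := congrArg Subtype.val hab
    have hbY : (b : G) ∈ Y := ⟨b, hb, rfl⟩
    have hw₁Y : (w₁ : G) ∈ Y := ⟨w₁, hw₁, rfl⟩
    have hcomm : Commute (a : G) (b : G) := (hAc _ ha _).symm
    have hb1 : (b : G) ^ Nat.card Y = 1 := by
      have := pow_card_eq_one' (G := Y) (x := ⟨b, hbY⟩)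
      exact congrArg Subtype.val this
    have hw1 : (w₁ : G) ^ Nat.card Y = 1 := by
      have := pow_card_eq_one' (G := Y) (x := ⟨w₁, hw₁Y⟩)
      exact congrArg Subtype.val this
    have hu1 : (g * (w₁ : G) * g⁻¹) ^ Nat.card Y = 1 := by
      rw [conj_pow, hw1]; group
    have ha1 : (a : G) ^ Nat.card Y = 1 := by
      rw [← hab', hcomm.mul_pow, hb1, mul_one] at hu1
      exact hu1
    have hazp : Odd (Nat.card (Subgroup.zpowers (a : G))) := by
      rw [Nat.card_zpowers]
      exact Odd.of_dvd_nat hYodd (orderOf_dvd_of_pow_eq_one ha1)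
    have ha2 : (a : G) = 1 := eq_one_of_two_odd hA2 hazp ha (Subgroup.mem_zpowers _)
    change g * (w₁ : G) * g⁻¹ ∈ Y
    rw [← hab', ha2, one_mul]
    exact hbY
  have hYbot : Y = ⊥ := hO Y hYnormal hYodd
  have hW₁bot : W₁ = ⊥ := by
    rw [eq_bot_iff]
    intro b hb
    have : ((b : W) : G) ∈ Y := ⟨b, hb, rfl⟩
    rw [hYbot, Subgroup.mem_bot] at this
    exact Subgroup.mem_bot.mpr (Subtype.ext this)
  rw [eq_bot_iff]
  intro x hx
  obtain ⟨g, rfl⟩ := QuotientGroup.mk'_surjective A x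
  have hgW : g ∈ W := hx
  obtain ⟨a, ha, b, hb, hab⟩ := hdec ⟨g, hgW⟩
  rw [hW₁bot, Subgroup.mem_bot] at hb
  subst hb
  rw [mul_one] at hab
  have hgA : g ∈ A := by
    have : (a : G) = g := congrArg Subtype.val hab
    rw [← this]; exact ha
  rw [Subgroup.mem_bot, QuotientGroup.mk'_apply, QuotientGroup.eq_one_iff]
  exact hgA

/-- The image of a factorisation in a quotient. -/
theorem Config.quotient {T H : Subgroup G} (hc : Config T H) (A : Subgroup G) [A.Normal] :
    Config (T.map (QuotientGroup.mk' A)) (H.map (QuotientGroup.mk' A)) := by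
  refine ⟨hc.two.map _, ?_, Odd.of_dvd_nat hc.odd (Subgroup.card_map_dvd _ _), ?_⟩
  · rintro _ ⟨x, hx, rfl⟩ _ ⟨y, hy, rfl⟩
    rw [← map_mul, ← map_mul, hc.ab x hx y hy]
  · intro g
    obtain ⟨g, rfl⟩ := QuotientGroup.mk'_surjective A g
    obtain ⟨t, ht, h, hh, rfl⟩ := hc.fac g
    exact ⟨_, ⟨t, ht, rfl⟩, _, ⟨h, hh, rfl⟩, map_mul _ _ _⟩

/-! ### The core case: `T` is a trivial-intersection subgroup -/

section Core

variable {T H : Subgroup G}

local notation "M" => Subgroup.normalizer (T : Set G)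

/-- **Step 4**: the TI property. -/
theorem Config.ti (hc : Config T H)
    (h2 : ∀ X : Subgroup G, T ≤ X → X ≠ ⊤ → X ≤ M)
    (h3 : ∀ A : Subgroup G, A.Normal → A ≤ T → A = ⊥)
    {g a : G} (ha1 : a ≠ 1) (haT : a ∈ T) (hga : g * a * g⁻¹ ∈ T) : g ∈ M := by
  let X : Subgroup G := Subgroup.centralizer ({a} : Set G)
  have hTX : T ≤ X := by
    intro t ht
    rw [Subgroup.mem_centralizer_iff]
    intro y hy
    rw [Set.mem_singleton_iff] at hy
    subst hy
    exact hc.ab _ haT _ ht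
  have hXne : X ≠ ⊤ := by
    intro hX
    have hcent : ∀ y : G, y * a = a * y := by
      intro y
      have : y ∈ X := by rw [hX]; trivial
      rw [Subgroup.mem_centralizer_iff] at this
      exact (this a rfl).symm
    have hn : (Subgroup.zpowers a).Normal := by
      refine ⟨?_⟩
      rintro _ ⟨k, rfl⟩ y
      have hc' : Commute y (a ^ k) := Commute.zpow_right (hcent y : Commute y a) k
      have h5 : y * a ^ k * y⁻¹ = a ^ k := by
        rw [hc'.eq]; group
      exact h5 ▸ (Subgroup.mem_zpowers_iff.mpr ⟨k, rfl⟩)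
    have := h3 _ hn ((Subgroup.zpowers_le).mpr haT)
    exact ha1 (Subgroup.zpowers_eq_bot.mp this)
  have hXM := h2 X hTX hXne
  have hS : (T.map (MulAut.conj g⁻¹).toMonoidHom) ≤ T := by
    refine hc.le_of_le_normalizer (hc.two.map _) (le_trans ?_ hXM)
    rintro _ ⟨t, ht, rfl⟩
    rw [Subgroup.mem_centralizer_iff]
    intro y hy
    rw [Set.mem_singleton_iff] at hy
    rw [hy]
    have h6 := hc.ab _ hga _ ht
    simp only [MulEquiv.toMonoidHom_eq_coe, MonoidHom.coe_coe, MulAut.conj_apply, inv_inv]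
    calc a * (g⁻¹ * t * g) = g⁻¹ * ((g * a * g⁻¹) * t) * g := by group
      _ = g⁻¹ * (t * (g * a * g⁻¹)) * g := by rw [h6]
      _ = g⁻¹ * t * g * a := by group
  have := mem_normalizer_of_map_conj_le hS
  have h7 := (Subgroup.normalizer (T : Set G)).inv_mem this
  simpa using h7

/-- `M = N(T)` is strongly embedded. -/
theorem Config.stronglyEmbedded (hc : Config T H) (hne : T ≠ ⊥) (hM : M ≠ ⊤)
    (hti : ∀ {g a : G}, a ≠ 1 → a ∈ T → g * a * g⁻¹ ∈ T → g ∈ M) :
    IsStronglyEmbedded M := by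
  refine ⟨hM, ?_, ?_⟩
  · obtain ⟨n, hn⟩ := hc.two.exists_card_eq
    have hn0 : n ≠ 0 := by
      rintro rfl
      rw [pow_zero] at hn
      exact hne (Subgroup.eq_bot_of_card_eq T hn)
    have h1 : 2 ∣ Nat.card T := by
      rw [hn]; exact dvd_pow_self 2 hn0
    exact even_iff_two_dvd.mpr (h1.trans (Subgroup.card_dvd_of_le Subgroup.le_normalizer))
  · intro g hg
    by_contra hodd
    rw [Nat.not_odd_iff_even] at hodd
    obtain ⟨i, hi⟩ := exists_prime_orderOf_dvd_card' 2 (even_iff_two_dvd.mp hodd)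
    have hi' : orderOf (i : G) = 2 := by rwa [Subgroup.orderOf_coe]
    have hi2 : (i : G) ^ 2 = 1 := by rw [← hi']; exact pow_orderOf_eq_one _
    obtain ⟨hi3, hi4⟩ := Subgroup.mem_inf.mp i.2
    have hi5 := mem_map_conj_iff.mp hi4
    have hi6 : (i : G) ∈ T := hc.mem_of_sq hi2 hi3
    have hsq : (g⁻¹ * i * g) ^ 2 = 1 := by
      have := conj_pow (a := g⁻¹) (b := (i : G)) (i := 2)
      rw [inv_inv] at this
      rw [this, hi2]; group
    have hi7 : g⁻¹ * i * g ∈ T := hc.mem_of_sq hsq hi5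
    have hi1 : (i : G) ≠ 1 := by
      intro h
      rw [h, orderOf_one] at hi'
      exact absurd hi' (by decide)
    have := hti (g := g⁻¹) (a := i) hi1 hi6 (by simpa using hi7)
    exact hg (by simpa using (Subgroup.normalizer (T : Set G)).inv_mem this)

/-- An odd-order element of `M` centralises `T` when `T` has a unique involution. -/
theorem Config.commute_of_unique (hc : Config T H) {z : G} (hz : orderOf z = 2) (hzT : z ∈ T)
    (huniq : ∀ s ∈ T, orderOf s = 2 → s = z) {k : G} (hkM : k ∈ M) (hk : Odd (orderOf k)) :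
    ∀ n : ℕ, ∀ x ∈ T, x ^ 2 ^ n = 1 → k * x = x * k := by
  have hkT : ∀ y ∈ T, k * y * k⁻¹ ∈ T := fun y hy => (Subgroup.mem_normalizer_iff.mp hkM y).mp hy
  have hkz : k * z * k⁻¹ = z := huniq _ (hkT z hzT) (by rw [orderOf_conj', hz])
  have hz2 : z ^ 2 = 1 := by rw [← hz]; exact pow_orderOf_eq_one _
  intro n
  induction n with
  | zero =>
    intro x _ hx
    rw [pow_zero, pow_one] at hx
    rw [hx, mul_one, one_mul]
  | succ n ih =>
    intro x hx hxn
    have hx2T : x ^ 2 ∈ T := T.pow_mem hx 2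
    have h1 : k * x ^ 2 = x ^ 2 * k := by
      refine ih (x ^ 2) hx2T ?_
      rw [← pow_mul, ← pow_succ']
      exact hxn
    let w := x⁻¹ * (k * x * k⁻¹)
    have hwT : w ∈ T := T.mul_mem (T.inv_mem hx) (hkT x hx)
    have hcomm : Commute x⁻¹ (k * x * k⁻¹) := hc.ab _ (T.inv_mem hx) _ (hkT x hx)
    have hw2 : w ^ 2 = 1 := by
      have h2 : (k * x * k⁻¹) ^ 2 = k * x ^ 2 * k⁻¹ := conj_pow
      change (x⁻¹ * (k * x * k⁻¹)) ^ 2 = 1
      rw [hcomm.mul_pow, h2, h1]
      group
    by_cases hw1 : w = 1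
    · have h3 : k * x * k⁻¹ = x := by
        have : x⁻¹ * (k * x * k⁻¹) = 1 := hw1
        exact (inv_mul_eq_one.mp this).symm
      exact (mul_inv_eq_iff_eq_mul.mp h3)
    · have hwz : w = z := huniq _ hwT (orderOf_eq_prime hw2 hw1)
      -- `k ^ 2` commutes with `x`
      have h4 : k * x * k⁻¹ = x * z := by
        rw [← hwz]; change _ = x * (x⁻¹ * (k * x * k⁻¹)); group
      have h5 : (k ^ 2) * x = x * (k ^ 2) := by
        have h6 : k * x = x * z * k := mul_inv_eq_iff_eq_mul.mp h4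
        have h7 : k * z = z * k := mul_inv_eq_iff_eq_mul.mp hkz
        have h8 : z * z = 1 := by rw [← pow_two]; exact hz2
        calc k ^ 2 * x = k * (k * x) := by rw [pow_two, mul_assoc]
          _ = k * (x * z * k) := by rw [h6]
          _ = (k * x) * z * k := by group
          _ = (x * z * k) * z * k := by rw [h6]
          _ = x * z * (k * z) * k := by group
          _ = x * z * (z * k) * k := by rw [h7]
          _ = x * (z * z) * k * k := by group
          _ = x * k ^ 2 := by rw [h8, pow_two]; group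
      -- odd order: `k` is a power of `k ^ 2`
      obtain ⟨m, hm⟩ := hk
      have h9 : k * (k ^ 2) ^ m = 1 := by
        have : k * (k ^ 2) ^ m = k ^ (2 * m + 1) := by
          rw [← pow_mul, pow_succ']
        rw [this, ← hm, pow_orderOf_eq_one]
      have h10 : k = ((k ^ 2) ^ m)⁻¹ := eq_inv_of_mul_eq_one_left h9
      have h11 : Commute ((k ^ 2) ^ m)⁻¹ x := ((Commute.pow_left h5 m).inv_left)
      rw [h10]
      exact h11

/-- Case of a unique involution: contradiction by Burnside's transfer theorem. -/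
theorem Config.not_unique (hc : Config T H)
    (hO : ∀ N : Subgroup G, N.Normal → Odd (Nat.card N) → N = ⊥) (hT : ¬ T.Normal)
    {z : G} (hz : orderOf z = 2) (hzT : z ∈ T) (huniq : ∀ s ∈ T, orderOf s = 2 → s = z) : False := by
  obtain ⟨P, hP⟩ := hc.two.exists_le_sylow
  have hPT : (P : Subgroup G) = T := hc.max P.2 hP
  have hnc : Subgroup.normalizer ((P : Subgroup G) : Set G) ≤
      Subgroup.centralizer ((P : Subgroup G) : Set G) := by
    rw [hPT]
    intro y hy
    rw [Subgroup.mem_centralizer_iff]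
    intro x hx
    obtain ⟨τ, hτ, k, hk, rfl⟩ := hc.fac y
    have hkM : k ∈ M := by
      have := (Subgroup.normalizer (T : Set G)).mul_mem
        ((Subgroup.normalizer (T : Set G)).inv_mem (Subgroup.le_normalizer hτ)) hy
      simpa using this
    have hkodd : Odd (orderOf k) := Odd.of_dvd_nat hc.odd (Subgroup.orderOf_dvd_natCard _ hk)
    obtain ⟨n, hn⟩ := (IsPGroup.iff_orderOf.mp hc.two) ⟨x, hx⟩
    have hxn : x ^ 2 ^ n = 1 := by
      have : (⟨x, hx⟩ : T) ^ 2 ^ n = 1 := by rw [← hn]; exact pow_orderOf_eq_one _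
      exact congrArg Subtype.val this
    have h1 := hc.commute_of_unique hz hzT huniq hkM hkodd n x hx hxn
    have h2 := hc.ab x hx τ hτ
    calc x * (τ * k) = (x * τ) * k := by group
      _ = τ * x * k := by rw [h2]
      _ = τ * (x * k) := by group
      _ = τ * (k * x) := by rw [h1]
      _ = τ * k * x := by group
  have hcompl := MonoidHom.ker_transferSylow_isComplement' P hnc
  have hKodd : Odd (Nat.card (MonoidHom.transferSylow P hnc).ker) := by
    rw [← Subgroup.IsComplement'.index_eq_card hcompl, ← Nat.not_even_iff_odd, even_iff_two_dvd]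
    exact P.not_dvd_index
  have hbot := hO _ inferInstance hKodd
  rw [hbot] at hcompl
  have htop := Subgroup.isComplement'_bot_left.mp hcompl
  apply hT
  rw [← hPT, htop]
  infer_instance

/-- **Step 5**: `X ∩ gXg⁻¹` is transitive on the involutions of a strongly embedded subgroup. -/
theorem exists_conj_mem_inf' {X : Subgroup G} (hX : IsStronglyEmbedded X) {g : G} (hg : g ∉ X)
    {s t : G} (hs : orderOf s = 2) (hsX : s ∈ X) (ht : orderOf t = 2) (htX : t ∈ X) :
    ∃ d, d ∈ X ∧ g⁻¹ * d * g ∈ X ∧ d * s * d⁻¹ = t := by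
  let x : G ⧸ X := QuotientGroup.mk 1
  let y : G ⧸ X := QuotientGroup.mk g
  have hxy : x ≠ y := by
    intro h
    have := (mk_eq_mk_iff (H := X) 1 g).mp h
    apply hg
    simpa using this
  have hsx : s • x = x := by
    change s • (QuotientGroup.mk 1 : G ⧸ X) = QuotientGroup.mk 1
    rw [smul_mk_eq_mk_iff]; simpa using hsX
  have htx : t • x = x := by
    change t • (QuotientGroup.mk 1 : G ⧸ X) = QuotientGroup.mk 1
    rw [smul_mk_eq_mk_iff]; simpa using htX
  have hu : orderOf (g * t * g⁻¹) = 2 := by rw [orderOf_conj', ht]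
  have huy : (g * t * g⁻¹) • y = y := by
    change (g * t * g⁻¹) • (QuotientGroup.mk g : G ⧸ X) = QuotientGroup.mk g
    rw [smul_mk_eq_mk_iff]
    have : g⁻¹ * (g * t * g⁻¹) * g = t := by group
    rw [this]; exact htX
  obtain ⟨i₁, hi₁, hi₁x, hi₁c⟩ := exists_swap hX hs hu hxy hsx huy
  obtain ⟨i₂, hi₂, hi₂x, hi₂c⟩ := exists_swap hX ht hu hxy htx huy
  have hi₁y : i₁ • y = x := by
    rw [← hi₁x, smul_smul, mul_self_of_sq (sq_of_orderOf_two hi₁), one_smul]
  have hi₂y : i₂ • y = x := by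
    rw [← hi₂x, smul_smul, mul_self_of_sq (sq_of_orderOf_two hi₂), one_smul]
  have hi₂inv : i₂⁻¹ = i₂ := inv_eq_of_sq (sq_of_orderOf_two hi₂)
  refine ⟨i₂⁻¹ * i₁, ?_, ?_, ?_⟩
  · have h1 : (i₂⁻¹ * i₁) • x = x := by
      rw [mul_smul, hi₁x, hi₂inv, hi₂y]
    have h2 : (i₂⁻¹ * i₁) • (QuotientGroup.mk 1 : G ⧸ X) = QuotientGroup.mk 1 := h1
    rw [smul_mk_eq_mk_iff] at h2
    simpa using h2
  · have h1 : (i₂⁻¹ * i₁) • y = y := by
      rw [mul_smul, hi₁y, hi₂inv, hi₂x]
    have h2 : (i₂⁻¹ * i₁) • (QuotientGroup.mk g : G ⧸ X) = QuotientGroup.mk g := h1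
    rwa [smul_mk_eq_mk_iff] at h2
  · calc i₂⁻¹ * i₁ * s * (i₂⁻¹ * i₁)⁻¹ = i₂⁻¹ * (i₁ * s * i₁⁻¹) * i₂ := by group
      _ = i₂⁻¹ * (i₂ * t * i₂⁻¹) * i₂ := by rw [hi₁c, hi₂c]
      _ = t := by group

/-- **Schur**: an odd-order subgroup of `M` can be conjugated into `H` by an element of `T`. -/
theorem Config.conj_into (hc : Config T H) (D : Subgroup G) (hDM : D ≤ M)
    (hDodd : Odd (Nat.card D)) : ∃ τ ∈ T, ∀ d ∈ D, τ * d * τ⁻¹ ∈ H := by
  let N' : Subgroup M := T.subgroupOf M
  let C' : Subgroup M := D.subgroupOf M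
  let E' : Subgroup M := C' ⊔ N'
  let K' : Subgroup M := E' ⊓ H.subgroupOf M
  have hN' : N'.Normal := Subgroup.normal_in_normalizer
  have hN2 : IsPGroup 2 N' := hc.two.comap_subtype
  have hK'odd : Odd (Nat.card K') := by
    refine Odd.of_dvd_nat hc.odd (dvd_trans ?_ (card_subgroupOf_dvd H M))
    exact Subgroup.card_dvd_of_le inf_le_right
  have hC'odd : Odd (Nat.card C') := Odd.of_dvd_nat hDodd (card_subgroupOf_dvd D M)
  have hKE : K' ⊔ N' = E' := by
    apply le_antisymm
    · exact sup_le inf_le_left le_sup_right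
    · rintro ⟨e, he⟩ heE
      obtain ⟨τ, hτ, k, hk, rfl⟩ := hc.fac e
      have hτM : τ ∈ M := Subgroup.le_normalizer hτ
      have hkM : k ∈ M := by
        have := (M).mul_mem ((M).inv_mem hτM) he
        simpa using this
      have hτN : (⟨τ, hτM⟩ : M) ∈ N' := hτ
      have hτE : (⟨τ, hτM⟩ : M) ∈ E' := (le_sup_right : N' ≤ E') hτN
      have hkE : (⟨k, hkM⟩ : M) ∈ E' := by
        have := E'.mul_mem (E'.inv_mem hτE) heE
        convert this using 1
        apply Subtype.ext
        simp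
      have hkK : (⟨k, hkM⟩ : M) ∈ K' := ⟨hkE, hk⟩
      have := (K' ⊔ N').mul_mem ((le_sup_right : N' ≤ K' ⊔ N') hτN)
        ((le_sup_left : K' ≤ K' ⊔ N') hkK)
      exact this
  have hK : K' ⊓ N' = ⊥ := by
    rw [eq_bot_iff]
    rintro x ⟨hx1, hx2⟩
    have h1 : (x : G) = 1 := eq_one_of_two_odd hc.two hc.odd hx2 hx1.2
    exact Subgroup.mem_bot.mpr (Subtype.ext h1)
  have hC : C' ⊓ N' = ⊥ := by
    rw [eq_bot_iff]
    rintro x ⟨hx1, hx2⟩
    have h1 : (x : G) = 1 := eq_one_of_two_odd hc.two hDodd hx2 hx1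
    exact Subgroup.mem_bot.mpr (Subtype.ext h1)
  obtain ⟨a, ha, hconj⟩ := Cfsg.Agent.Lib.Solvable.Hall.complements_conj_in (E := E') (N := N')
    (K := K') (C := C') (fun x hx y hy => Subtype.ext (hc.ab _ hx _ hy)) hKE rfl hK hC
    (coprime_two_odd hN2 hK'odd)
  refine ⟨a, ha, fun d hd => ?_⟩
  have hd' : (⟨d, hDM hd⟩ : M) ∈ C' := hd
  have h1 : MulAut.conj a • (⟨d, hDM hd⟩ : M) ∈ K' := by
    rw [← hconj]
    exact Subgroup.smul_mem_pointwise_smul _ _ _ hd'
  exact h1.2

/-- **Step 6b**. -/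
theorem Config.exists_good (hc : Config T H) (hM : IsStronglyEmbedded M) :
    ∃ h ∈ H, h ∉ M ∧ ∀ d ∈ M, h⁻¹ * d * h ∈ M → d ∈ H := by
  have hex : ∃ h₀ ∈ H, h₀ ∉ M := by
    by_contra hcon
    push Not at hcon
    apply hM.1
    rw [eq_top_iff]
    intro g _
    obtain ⟨t, ht, h, hh, rfl⟩ := hc.fac g
    exact (M).mul_mem (Subgroup.le_normalizer ht) (hcon h hh)
  obtain ⟨h₀, hh₀, hh₀M⟩ := hex
  obtain ⟨τ₀, hτ₀, hτ₀D⟩ := hc.conj_into (M ⊓ (M).map (MulAut.conj h₀).toMonoidHom) inf_le_left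
    (hM.2.2 h₀ hh₀M)
  obtain ⟨h, hh, t, ht, e⟩ := hc.fac' (τ₀ * h₀)
  have hτ₀M : τ₀ ∈ M := Subgroup.le_normalizer hτ₀
  have htM : t ∈ M := Subgroup.le_normalizer ht
  refine ⟨h, hh, ?_, ?_⟩
  · intro hhM
    apply hh₀M
    have h1 : τ₀ * h₀ ∈ M := e ▸ (M).mul_mem hhM htM
    have := (M).mul_mem ((M).inv_mem hτ₀M) h1
    simpa using this
  · intro d hd hd2
    have hd0M : τ₀⁻¹ * d * τ₀ ∈ M := (M).mul_mem ((M).mul_mem ((M).inv_mem hτ₀M) hd) hτ₀M
    have hd0 : τ₀⁻¹ * d * τ₀ ∈ M ⊓ (M).map (MulAut.conj h₀).toMonoidHom := by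
      refine ⟨hd0M, mem_map_conj_iff.mpr ?_⟩
      have h1 : h₀⁻¹ * (τ₀⁻¹ * d * τ₀) * h₀ = t⁻¹ * (h⁻¹ * d * h) * t := by
        calc h₀⁻¹ * (τ₀⁻¹ * d * τ₀) * h₀ = (τ₀ * h₀)⁻¹ * d * (τ₀ * h₀) := by group
          _ = (h * t)⁻¹ * d * (h * t) := by rw [e]
          _ = t⁻¹ * (h⁻¹ * d * h) * t := by group
      rw [h1]
      exact (M).mul_mem ((M).mul_mem ((M).inv_mem htM) hd2) htM
    have := hτ₀D _ hd0
    convert this using 1
    group

/-- **Step 6c**: the final contradiction. -/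
theorem Config.final (hc : Config T H) (hM : IsStronglyEmbedded M)
    (hI : ∀ z, orderOf z = 2 → z ∈ T → ¬ ∀ s ∈ T, orderOf s = 2 → s = z) : False := by
  obtain ⟨h, hh, hhM, hD⟩ := hc.exists_good hM
  obtain ⟨z, hzM, hz⟩ := exists_involution hM
  have hzT : z ∈ T := hc.mem_of_sq (sq_of_orderOf_two hz) hzM
  let x : G ⧸ M := QuotientGroup.mk 1
  let y : G ⧸ M := QuotientGroup.mk h
  have hxy : x ≠ y := by
    intro e
    have := (mk_eq_mk_iff (H := M) 1 h).mp e
    apply hhM
    simpa using this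
  have hzx : z • x = x := by
    change z • (QuotientGroup.mk 1 : G ⧸ M) = QuotientGroup.mk 1
    rw [smul_mk_eq_mk_iff]; simpa using hzM
  have hu : orderOf (h * z * h⁻¹) = 2 := by rw [orderOf_conj', hz]
  have huy : (h * z * h⁻¹) • y = y := by
    change (h * z * h⁻¹) • (QuotientGroup.mk h : G ⧸ M) = QuotientGroup.mk h
    rw [smul_mk_eq_mk_iff]
    have : h⁻¹ * (h * z * h⁻¹) * h = z := by group
    rw [this]; exact hzM
  obtain ⟨v, hv, hvx, -⟩ := exists_swap hM hz hu hxy hzx huy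
  have hvsq : v ^ 2 = 1 := sq_of_orderOf_two hv
  have hvy : v • y = x := by
    rw [← hvx, smul_smul, mul_self_of_sq hvsq, one_smul]
  have hg₁ : h⁻¹ * v ∈ M := by
    have : (QuotientGroup.mk h : G ⧸ M) = QuotientGroup.mk v := by
      have h1 : v • (QuotientGroup.mk 1 : G ⧸ M) = QuotientGroup.mk h := hvx
      have h2 : v • (QuotientGroup.mk 1 : G ⧸ M) = QuotientGroup.mk (v * 1) := rfl
      rw [mul_one] at h2
      rw [← h1, h2]
    exact (mk_eq_mk_iff h v).mp this
  have hc₁ : v * h ∈ M := by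
    have : (QuotientGroup.mk (v * h) : G ⧸ M) = QuotientGroup.mk 1 := hvy
    have h1 := (mk_eq_mk_iff (H := M) (v * h) 1).mp this
    have := (M).inv_mem h1
    simpa using this
  obtain ⟨τ, hτ, k, hk, hg₁e⟩ := hc.fac (h⁻¹ * v)
  have hτM : τ ∈ M := Subgroup.le_normalizer hτ
  have hkM : k ∈ M := by
    have := (M).mul_mem ((M).inv_mem hτM) hg₁
    rw [hg₁e] at this
    simpa using this
  have hve : v = h * τ * k := by
    calc v = h * (h⁻¹ * v) := by group
      _ = h * (τ * k) := by rw [hg₁e]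
      _ = h * τ * k := by group
  -- the key commutation
  have hkey : ∀ w, w ∈ M → h * w * h⁻¹ ∈ M → w * τ = τ * w := by
    intro w hw hw2
    have hdH : h * w * h⁻¹ ∈ H := by
      refine hD _ hw2 ?_
      have : h⁻¹ * (h * w * h⁻¹) * h = w := by group
      rw [this]; exact hw
    have hwH : w ∈ H := by
      have := H.mul_mem (H.mul_mem (H.inv_mem hh) hdH) hh
      have e : h⁻¹ * (h * w * h⁻¹) * h = w := by group
      rwa [e] at this
    have hd''M : (h⁻¹ * v)⁻¹ * w * (h⁻¹ * v) ∈ M := (M).mul_mem ((M).mul_mem ((M).inv_mem hg₁) hw) hg₁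
    have hd''2 : h⁻¹ * ((h⁻¹ * v)⁻¹ * w * (h⁻¹ * v)) * h ∈ M := by
      have e : h⁻¹ * ((h⁻¹ * v)⁻¹ * w * (h⁻¹ * v)) * h = (v * h)⁻¹ * (h * w * h⁻¹) * (v * h) := by
        group
      rw [e]
      exact (M).mul_mem ((M).mul_mem ((M).inv_mem hc₁) hw2) hc₁
    have hd''H := hD _ hd''M hd''2
    set d'' := (h⁻¹ * v)⁻¹ * w * (h⁻¹ * v) with hd''
    have hd₃H : k * d'' * k⁻¹ ∈ H := H.mul_mem (H.mul_mem hk hd''H) (H.inv_mem hk)
    have hd₃M : k * d'' * k⁻¹ ∈ M := (M).mul_mem ((M).mul_mem hkM hd''M) ((M).inv_mem hkM)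
    set d₃ := k * d'' * k⁻¹ with hd₃
    have hwe : w = τ * d₃ * τ⁻¹ := by
      rw [hd₃, hd'', hg₁e]
      group
    have he1 : w * d₃⁻¹ ∈ H := H.mul_mem hwH (H.inv_mem hd₃H)
    have he2 : w * d₃⁻¹ ∈ T := by
      have h5 : d₃ * τ⁻¹ * d₃⁻¹ ∈ T :=
        (Subgroup.mem_normalizer_iff.mp hd₃M _).mp (T.inv_mem hτ)
      have h6 : w * d₃⁻¹ = τ * (d₃ * τ⁻¹ * d₃⁻¹) := by
        rw [hwe]; group
      rw [h6]
      exact T.mul_mem hτ h5
    have he3 : w * d₃⁻¹ = 1 := eq_one_of_two_odd hc.two hc.odd he2 he1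
    have he4 : w = d₃ := mul_inv_eq_one.mp he3
    have he5 : w = τ * w * τ⁻¹ := by
      conv_lhs => rw [hwe]
      rw [← he4]
    exact eq_mul_inv_iff_mul_eq.mp he5
  by_cases hτ1 : τ = 1
  · -- then `v ∈ H`
    have hvH : v ∈ H := by
      rw [hve, hτ1, mul_one]
      exact H.mul_mem hh hk
    have : v = 1 := eq_one_of_two_odd (isPGroup_zpowers_of_sq hvsq) hc.odd
      (Subgroup.mem_zpowers v) hvH
    rw [this, orderOf_one] at hv
    exact absurd hv (by decide)
  · -- a power of `τ` is an involution fixed by a transitive group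
    have h2dvd : 2 ∣ Nat.card (Subgroup.zpowers τ) := by
      rw [Nat.card_zpowers]
      obtain ⟨n, hn⟩ := (IsPGroup.iff_orderOf.mp hc.two) ⟨τ, hτ⟩
      rw [Subgroup.orderOf_mk] at hn
      rw [hn]
      refine dvd_pow_self 2 ?_
      rintro rfl
      rw [pow_zero, orderOf_eq_one_iff] at hn
      exact hτ1 hn
    obtain ⟨i, hi⟩ := exists_prime_orderOf_dvd_card' 2 h2dvd
    have hi' : orderOf (i : G) = 2 := by rwa [Subgroup.orderOf_coe]
    have hiT : (i : G) ∈ T := (Subgroup.zpowers_le.mpr hτ) i.2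
    apply hI (i : G) hi' hiT
    intro s hs hs2
    have hh' : h⁻¹ ∉ M := fun hm => hhM (by simpa using (M).inv_mem hm)
    obtain ⟨d, hdM, hd2, hds⟩ := exists_conj_mem_inf' hM hh' hi'
      (Subgroup.le_normalizer hiT) hs2 (Subgroup.le_normalizer hs)
    have hdτ := hkey d hdM (by simpa using hd2)
    have hdi : Commute d (i : G) := by
      obtain ⟨m, hm⟩ := i.2
      have : Commute d τ := hdτ
      rw [← hm]
      exact this.zpow_right m
    rw [← hds, hdi.eq]
    group

/-- The core case. -/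
theorem Config.core (hc : Config T H)
    (hO : ∀ N : Subgroup G, N.Normal → Odd (Nat.card N) → N = ⊥)
    (h2 : ∀ X : Subgroup G, T ≤ X → X ≠ ⊤ → X ≤ M)
    (h3 : ∀ A : Subgroup G, A.Normal → A ≤ T → A = ⊥) (hT : ¬ T.Normal) : False := by
  have hne : T ≠ ⊥ := by
    rintro rfl
    exact hT inferInstance
  have hM : M ≠ ⊤ := fun e => hT (Subgroup.normalizer_eq_top_iff.mp e)
  have hsb := hc.stronglyEmbedded hne hM (fun h1 h2' h3' => hc.ti h2 h3 h1 h2' h3')
  refine hc.final hsb ?_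
  intro z hz hzT huniq
  exact hc.not_unique hO hT hz hzT huniq

end Core

end Basic

/-- **Main theorem**: if `G = T H` with `T` an abelian 2-group, `H` of odd order and no nontrivial
normal subgroup of odd order, then `T` is normal. -/
theorem normal_of_factor_aux (n : ℕ) : ∀ (G : Type u) [Group G] [Finite G], Nat.card G = n →
    ∀ T H : Subgroup G, Config T H →
    (∀ N : Subgroup G, N.Normal → Odd (Nat.card N) → N = ⊥) → T.Normal := by
  induction n using Nat.strong_induction_on with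
  | _ n ih =>
    intro G _ _ hn T H hc hO
    -- Step 2
    have step2 : ∀ X : Subgroup G, T ≤ X → X ≠ ⊤ → X ≤ Subgroup.normalizer (T : Set G) := by
      intro X hTX hX
      have hlt : Nat.card X < n := by
        rw [← hn]
        exact lt_of_le_of_ne (Subgroup.card_le_card_group X)
          (fun e => hX (Subgroup.eq_top_of_card_eq X e))
      have h1 := ih _ hlt X rfl (T.subgroupOf X) (H.subgroupOf X) (hc.subgroupOf hTX)
        (hc.odd_normal_subgroupOf hTX hO)
      intro x hx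
      rw [Subgroup.mem_normalizer_iff]
      intro t
      constructor
      · intro ht
        exact h1.conj_mem ⟨t, hTX ht⟩ ht ⟨x, hx⟩
      · intro ht
        have hm : t ∈ X := by
          have := X.mul_mem (X.mul_mem (X.inv_mem hx) (hTX ht)) hx
          have e : x⁻¹ * (x * t * x⁻¹) * x = t := by group
          rwa [e] at this
        have := h1.conj_mem ⟨x * t * x⁻¹, hTX ht⟩ ht (⟨x, hx⟩ : X)⁻¹
        have e : (⟨x, hx⟩ : X)⁻¹ * (⟨x * t * x⁻¹, hTX ht⟩ : X) * ((⟨x, hx⟩ : X)⁻¹)⁻¹ = ⟨t, hm⟩ := by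
          apply Subtype.ext
          simp
          group
        rw [e] at this
        exact this
    -- Step 3
    have step3 : ∀ A : Subgroup G, A.Normal → A ≤ T → A ≠ ⊥ → T.Normal := by
      intro A hA hAT hAne
      by_cases hC : Subgroup.centralizer (A : Set G) = ⊤
      · -- `A` is central
        have hAc : ∀ a ∈ A, ∀ g : G, g * a = a * g := by
          intro a ha g
          have : g ∈ Subgroup.centralizer (A : Set G) := by rw [hC]; trivial
          rw [Subgroup.mem_centralizer_iff] at this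
          exact (this a ha).symm
        have hA2 : IsPGroup 2 A := hc.two.to_le hAT
        have hlt : Nat.card (G ⧸ A) < n := by
          rw [← hn]
          have h5 : Nat.card G = Nat.card (G ⧸ A) * Nat.card A :=
            Subgroup.card_eq_card_quotient_mul_card_subgroup A
          have h6 : 1 < Nat.card A := (Subgroup.one_lt_card_iff_ne_bot A).mpr hAne
          have h7 : 0 < Nat.card (G ⧸ A) := Nat.card_pos
          rw [h5]
          nlinarith
        have h1 := ih _ hlt (G ⧸ A) rfl _ _ (hc.quotient A) (odd_normal_quotient hO A hA2 hAc)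
        have h2 : T = (T.map (QuotientGroup.mk' A)).comap (QuotientGroup.mk' A) := by
          rw [Subgroup.comap_map_eq_self]
          rw [QuotientGroup.ker_mk']
          exact hAT
        rw [h2]
        exact h1.comap _
      · -- `C(A) < G`
        have hTC : T ≤ Subgroup.centralizer (A : Set G) := by
          intro t ht
          rw [Subgroup.mem_centralizer_iff]
          intro a ha
          exact hc.ab _ (hAT ha) _ ht
        have hCM := step2 _ hTC hC
        have hCn : (Subgroup.centralizer (A : Set G)).Normal := inferInstance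
        refine ⟨fun t ht g => ?_⟩
        have hS : T.map (MulAut.conj g).toMonoidHom ≤ T := by
          refine hc.le_of_le_normalizer (hc.two.map _) (le_trans ?_ hCM)
          rintro _ ⟨t', ht', rfl⟩
          exact hCn.conj_mem _ (hTC ht') g
        exact hS ⟨t, ht, rfl⟩
    by_contra hT
    refine hc.core hO step2 ?_ hT
    intro A hA hAT
    by_contra hne
    exact hT (step3 A hA hAT hne)

theorem normal_of_factor {G : Type u} [Group G] [Finite G] {T H : Subgroup G} (hc : Config T H)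
    (hO : ∀ N : Subgroup G, N.Normal → Odd (Nat.card N) → N = ⊥) : T.Normal :=
  normal_of_factor_aux _ G rfl T H hc hO

end Cfsg.Agent.Lib.AbelTwo.Factor
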