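import Cfsg.Agent.Lib.AbelTwo.Factor
import Mathlib

/-!
# Finite A-groups with a class of the largest 2-power size

Everything here takes the Feit–Thompson theorem as a hypothesis `FT`.
-/

set_option autoImplicit false
set_option linter.unusedSectionVars false

namespace Cfsg.Agent.Lib.AbelTwo.Main

open Cfsg Cfsg.Agent.Lib.AbelTwo.Factor

universe u

/-- Covering: a proper subgroup misses a class. -/
theorem exists_not_mem_conj {G : Type*} [Group G] [Finite G] (M : Subgroup G) (hM : M ≠ ⊤) :
    ∃ x : G, ∀ g : G, g⁻¹ * x * g ∉ M := by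
  classical
  by_contra hcon
  have hcon' : ∀ x : G, ∃ g : G, g⁻¹ * x * g ∈ M := by
    intro x
    by_contra hx
    exact hcon ⟨x, fun g hg => hx ⟨g, hg⟩⟩
  let f : (G ⧸ M) × M → G := fun c => c.1.out * (c.2 : G) * c.1.out⁻¹
  have hf : Function.Surjective f := by
    intro x
    obtain ⟨g, hg⟩ := hcon' x
    obtain ⟨h, hh⟩ := QuotientGroup.mk_out_eq_mul M g
    refine ⟨(((g : G) : G ⧸ M), ⟨(h : G)⁻¹ * (g⁻¹ * x * g) * h, ?_⟩), ?_⟩
    · exact M.mul_mem (M.mul_mem (M.inv_mem h.2) hg) h.2
    · simp only [f]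
      rw [hh]
      group
  have hcard : Nat.card G = Nat.card ((G ⧸ M) × M) := by
    rw [Nat.card_prod]
    exact (Subgroup.card_eq_card_quotient_mul_card_subgroup M)
  have hinj : Function.Injective f := by
    have := Fintype.ofFinite G
    have := Fintype.ofFinite ((G ⧸ M) × M)
    rw [Nat.card_eq_fintype_card, Nat.card_eq_fintype_card] at hcard
    exact ((Fintype.bijective_iff_surjective_and_card f).mpr ⟨hf, hcard.symm⟩).1
  have hsub : Subsingleton (G ⧸ M) := by
    refine ⟨fun c d => ?_⟩
    have : f (c, 1) = f (d, 1) := by simp [f]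
    exact (Prod.ext_iff.mp (hinj this)).1
  exact hM (QuotientGroup.subgroup_eq_top_of_subsingleton M hsub)

/-- The Feit–Thompson statement, as a hypothesis. -/
def FT : Prop := ∀ (X : Type u) [Group X] [Finite X], Odd (Nat.card X) → Group.IsSolvable X

/-- Factorised groups are solvable. -/
theorem solvable_of_factor_aux (hFT : FT.{u}) (n : ℕ) : ∀ (G : Type u) [Group G] [Finite G],
    Nat.card G = n → ∀ T H : Subgroup G, Config T H → Group.IsSolvable G := by
  induction n using Nat.strong_induction_on with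
  | _ n ih =>
    intro G _ _ hn T H hc
    by_cases hO : ∀ N : Subgroup G, N.Normal → Odd (Nat.card N) → N = ⊥
    · have hT : T.Normal := normal_of_factor hc hO
      have hHs : Group.IsSolvable H := hFT H hc.odd
      let π := QuotientGroup.mk' T
      have hsurj : Function.Surjective (π.comp H.subtype) := by
        intro q
        obtain ⟨g, rfl⟩ := QuotientGroup.mk'_surjective T q
        obtain ⟨t, ht, h, hh, rfl⟩ := hc.fac g
        refine ⟨⟨h, hh⟩, ?_⟩
        change π h = π (t * h)
        rw [map_mul]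
        have : π t = 1 := by
          rw [QuotientGroup.mk'_apply, QuotientGroup.eq_one_iff]; exact ht
        rw [this, one_mul]
      have hQ : Group.IsSolvable (G ⧸ T) := Group.isSolvable_of_surjective hsurj
      have hTs : Group.IsSolvable T := by
        refine Group.isSolvable_of_comm ?_
        intro a b
        exact Subtype.ext (hc.ab _ a.2 _ b.2)
      refine Group.isSolvable_of_ker_le_range T.subtype π ?_
      rw [QuotientGroup.ker_mk', Subgroup.range_subtype]
    · push Not at hO
      obtain ⟨N, hN, hNodd, hNne⟩ := hO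
      have hNs : Group.IsSolvable N := hFT N hNodd
      have hlt : Nat.card (G ⧸ N) < n := by
        rw [← hn]
        have h5 : Nat.card G = Nat.card (G ⧸ N) * Nat.card N :=
          Subgroup.card_eq_card_quotient_mul_card_subgroup N
        have h6 : 1 < Nat.card N := (Subgroup.one_lt_card_iff_ne_bot N).mpr hNne
        have h7 : 0 < Nat.card (G ⧸ N) := Nat.card_pos
        rw [h5]
        nlinarith
      have hQ : Group.IsSolvable (G ⧸ N) := ih _ hlt _ rfl _ _ (hc.quotient N)
      refine Group.isSolvable_of_ker_le_range N.subtype (QuotientGroup.mk' N) ?_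
      rw [QuotientGroup.ker_mk', Subgroup.range_subtype]

theorem solvable_of_factor (hFT : FT.{u}) {G : Type u} [Group G] [Finite G] {T H : Subgroup G}
    (hc : Config T H) : Group.IsSolvable G :=
  solvable_of_factor_aux hFT _ G rfl T H hc

open scoped IsMulCommutative in
/-- **Lemma B**: central elements in the commutator are trivial when Sylows are abelian. -/
theorem eq_one_of_central_of_commutator {X : Type*} [Group X] [Finite X]
    (hA : ∀ (p : ℕ) [Fact p.Prime] (P : Sylow p X), IsMulCommutative (P : Subgroup X))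
    {z : X} (hz : z ∈ Subgroup.center X) (hz' : z ∈ commutator X) : z = 1 := by
  by_contra hne
  have hord : orderOf z ≠ 1 := fun h => hne (orderOf_eq_one_iff.mp h)
  obtain ⟨p, hp, hpd⟩ := Nat.exists_prime_and_dvd hord
  have : Fact p.Prime := ⟨hp⟩
  have hfin : orderOf z ≠ 0 := (orderOf_pos z).ne'
  set z₁ := z ^ (orderOf z / p) with hz₁
  have hz₁ord : orderOf z₁ = p := orderOf_pow_orderOf_div hfin hpd
  have hz₁c : z₁ ∈ Subgroup.center X := Subgroup.pow_mem _ hz _
  have hz₁d : z₁ ∈ commutator X := Subgroup.pow_mem _ hz' _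
  obtain ⟨P⟩ : Nonempty (Sylow p X) := inferInstance
  have hPc := hA p P
  have key : ∀ (k : ℕ) (g₀ : X), g₀⁻¹ * z₁ ^ k * g₀ ∈ (P : Subgroup X) →
      g₀⁻¹ * z₁ ^ k * g₀ = z₁ ^ k := by
    intro k g₀ _
    have hc : z₁ ^ k ∈ Subgroup.center X := Subgroup.pow_mem _ hz₁c _
    rw [Subgroup.mem_center_iff] at hc
    rw [mul_assoc, ← hc g₀]
    group
  have h1 : (MonoidHom.transfer (MonoidHom.id (P : Subgroup X)) z₁ : (P : Subgroup X)) =
      ⟨z₁ ^ (P : Subgroup X).index, MonoidHom.transfer_eq_pow_aux z₁ key⟩ :=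
    MonoidHom.transfer_eq_pow _ _ key
  have h2 : (MonoidHom.transfer (MonoidHom.id (P : Subgroup X)) z₁ : (P : Subgroup X)) = 1 :=
    (Abelianization.commutator_subset_ker _) hz₁d
  have h3 : z₁ ^ (P : Subgroup X).index = 1 := by
    rw [h2] at h1
    exact (congrArg Subtype.val h1).symm
  have h4 : p ∣ (P : Subgroup X).index := by
    have := orderOf_dvd_of_pow_eq_one h3
    rwa [hz₁ord] at this
  exact P.not_dvd_index h4

/-- **Lemma A**: odd classes and an abelian Sylow 2-subgroup: solvable. -/
theorem solvable_of_odd_classes (hFT : FT.{u}) {L : Type u} [Group L] [Finite L] (P : Sylow 2 L)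
    (hP : IsMulCommutative (P : Subgroup L))
    (hodd : ∀ y : L, ¬ 2 ∣ (Subgroup.centralizer ({y} : Set L)).index) : Group.IsSolvable L := by
  have hC : Subgroup.centralizer ((P : Subgroup L) : Set L) = ⊤ := by
    by_contra hne
    obtain ⟨y, hy⟩ := exists_not_mem_conj _ hne
    have hcard : ¬ 2 ∣ Nat.card (L ⧸ Subgroup.centralizer ({y} : Set L)) := hodd y
    obtain ⟨q, hq⟩ := P.2.nonempty_fixed_point_of_prime_not_dvd_card _ hcard
    induction q using QuotientGroup.induction_on with
    | H b =>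
      apply hy b⁻¹
      rw [Subgroup.mem_centralizer_iff]
      intro t ht
      have h1 := hq ⟨t, ht⟩
      have h2 : t • (QuotientGroup.mk b : L ⧸ Subgroup.centralizer ({y} : Set L)) =
          QuotientGroup.mk b := h1
      rw [Cfsg.Agent.Lib.StrongEmb.Basic.smul_mk_eq_mk_iff, Subgroup.mem_centralizer_iff] at h2
      have h3 := h2 y rfl
      rw [inv_inv]
      -- `y` commutes with `b⁻¹ t b`
      calc t * (b * y * b⁻¹) = b * ((b⁻¹ * t * b) * y) * b⁻¹ := by group
        _ = b * (y * (b⁻¹ * t * b)) * b⁻¹ := by rw [← h3]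
        _ = b * y * b⁻¹ * t := by group
  have hPn : (P : Subgroup L).Normal := by
    refine ⟨fun t ht g => ?_⟩
    have hg : g ∈ Subgroup.centralizer ((P : Subgroup L) : Set L) := by rw [hC]; trivial
    rw [Subgroup.mem_centralizer_iff] at hg
    have := hg t ht
    rw [← this]
    simpa using ht
  have hQodd : Odd (Nat.card (L ⧸ (P : Subgroup L))) := by
    rw [← Nat.not_even_iff_odd, even_iff_two_dvd]
    exact P.not_dvd_index
  have hQ : Group.IsSolvable (L ⧸ (P : Subgroup L)) := hFT _ hQodd
  have hPs : Group.IsSolvable (P : Subgroup L) := by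
    refine Group.isSolvable_of_comm ?_
    intro a b
    exact mul_comm' a b
  refine Group.isSolvable_of_ker_le_range (P : Subgroup L).subtype
    (QuotientGroup.mk' (P : Subgroup L)) ?_
  rw [QuotientGroup.ker_mk', Subgroup.range_subtype]

/-- Parity: relative indices in normal subgroups divide. -/
theorem relIndex_dvd_of_normal {G : Type*} [Group G] [Finite G] (A L B : Subgroup G) [L.Normal]
    (hLB : L ≤ B) : A.relIndex L ∣ A.relIndex B := by
  set A' := A ⊓ B with hA'
  have h1 : A.relIndex B = A'.relIndex B := (Subgroup.inf_relIndex_right A B).symm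
  have h2 : A.relIndex L = A'.relIndex L := by
    rw [← Subgroup.inf_relIndex_right A L, ← Subgroup.inf_relIndex_right A' L, hA', inf_assoc,
      inf_eq_right.mpr hLB]
  rw [h1, h2]
  have hA'B : A' ≤ B := inf_le_right
  set S := A' ⊔ L with hS
  have hSB : S ≤ B := sup_le hA'B hLB
  have h3 := Subgroup.relIndex_mul_relIndex A' S B (le_sup_left) hSB
  have h4 : A'.relIndex S = A'.relIndex L := by
    have e1 : ∀ {X Y : Subgroup G}, X ≤ Y → X.relIndex Y * Nat.card X = Nat.card Y := by
      intro X Y hXY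
      have := Subgroup.relIndex_mul_relIndex ⊥ X Y bot_le hXY
      rw [Subgroup.relIndex_bot_left, Subgroup.relIndex_bot_left] at this
      rw [mul_comm]
      exact this
    have e2 := e1 (X := A') (Y := S) le_sup_left
    have e3 := e1 (X := A' ⊓ L) (Y := L) inf_le_right
    have e4 : (A' ⊓ L).relIndex L = A'.relIndex L := Subgroup.inf_relIndex_right A' L
    rw [e4] at e3
    have e5 := e1 (X := L) (Y := S) le_sup_right
    have e6 : L.relIndex S = L.relIndex A' := by
      exact Subgroup.relIndex_sup_right A' L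
    have e7 := e1 (X := A' ⊓ L) (Y := A') inf_le_left
    have e8 : (A' ⊓ L).relIndex A' = L.relIndex A' := by
      rw [inf_comm]
      exact Subgroup.inf_relIndex_right L A'
    rw [e8] at e7
    rw [e6] at e5
    have hpos1 : 0 < Nat.card A' := Nat.card_pos
    have hpos2 : 0 < Nat.card (A' ⊓ L : Subgroup G) := Nat.card_pos
    have h7 : A'.relIndex S * (Nat.card A' * Nat.card (A' ⊓ L : Subgroup G)) =
        A'.relIndex L * (Nat.card A' * Nat.card (A' ⊓ L : Subgroup G)) := by
      calc A'.relIndex S * (Nat.card A' * Nat.card (A' ⊓ L : Subgroup G))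
          = (A'.relIndex S * Nat.card A') * Nat.card (A' ⊓ L : Subgroup G) := by ring
        _ = (L.relIndex A' * Nat.card L) * Nat.card (A' ⊓ L : Subgroup G) := by rw [e2, e5]
        _ = (L.relIndex A' * Nat.card (A' ⊓ L : Subgroup G)) * Nat.card L := by ring
        _ = Nat.card A' * (A'.relIndex L * Nat.card (A' ⊓ L : Subgroup G)) := by rw [e7, e3]
        _ = A'.relIndex L * (Nat.card A' * Nat.card (A' ⊓ L : Subgroup G)) := by ring
    exact Nat.eq_of_mul_eq_mul_right (Nat.mul_pos hpos1 hpos2) h7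
  rw [← h3, h4]
  exact dvd_mul_right _ _

/-- Subgroups of a group whose Sylows are abelian. -/
theorem sylow_abelian_subgroup {G : Type*} [Group G] [Finite G]
    (hA : ∀ (p : ℕ) [Fact p.Prime] (P : Sylow p G), IsMulCommutative (P : Subgroup G))
    (X : Subgroup G) (p : ℕ) [Fact p.Prime] (P : Sylow p X) : IsMulCommutative (P : Subgroup X) := by
  have h1 : IsPGroup p ((P : Subgroup X).map X.subtype) := P.2.map _
  obtain ⟨S, hS⟩ := h1.exists_le_sylow
  have h2 := hA p S
  refine ⟨⟨fun a b => ?_⟩⟩
  have ha : ((a : X) : G) ∈ (S : Subgroup G) := hS ⟨a, a.2, rfl⟩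
  have hb : ((b : X) : G) ∈ (S : Subgroup G) := hS ⟨b, b.2, rfl⟩
  have h3 := mul_comm' (⟨_, ha⟩ : (S : Subgroup G)) ⟨_, hb⟩
  have h4 : ((a : X) : G) * ((b : X) : G) = ((b : X) : G) * ((a : X) : G) := congrArg Subtype.val h3
  exact Subtype.ext (Subtype.ext h4)

/-- **The main theorem.** -/
theorem main (hFT : FT.{u}) {G : Type u} [Group G] [Finite G]
    (hA : ∀ (p : ℕ) [Fact p.Prime] (P : Sylow p G), IsMulCommutative (P : Subgroup G))
    (a : ℕ) (hmax : ∀ y : G, ¬ 2 ^ (a + 1) ∣ (Subgroup.centralizer ({y} : Set G)).index)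
    (hx : ∃ x : G, (Subgroup.centralizer ({x} : Set G)).index = 2 ^ a) :
    Group.IsSolvable G := by
  obtain ⟨x, hx⟩ := hx
  set C : Subgroup G := Subgroup.centralizer ({x} : Set G) with hCdef
  obtain ⟨T⟩ : Nonempty (Sylow 2 G) := inferInstance
  have hTab : ∀ u ∈ (T : Subgroup G), ∀ v ∈ (T : Subgroup G), u * v = v * u := by
    intro u hu v hv
    have := hA 2 T
    exact congrArg Subtype.val (mul_comm' (⟨u, hu⟩ : (T : Subgroup G)) ⟨v, hv⟩)
  -- counting: the orbit of `C` under `T` is everything
  have hcardG : Nat.card C * 2 ^ a = Nat.card G := by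
    rw [← hx]; exact Subgroup.card_mul_index C
  have hcardT : Nat.card (T : Subgroup G) * (T : Subgroup G).index = Nat.card G :=
    Subgroup.card_mul_index _
  have hTidx : Nat.Coprime 2 (T : Subgroup G).index :=
    (Nat.Prime.coprime_iff_not_dvd Nat.prime_two).mpr T.not_dvd_index
  -- the action on cosets
  let q₀ : G ⧸ C := QuotientGroup.mk 1
  have hstab : MulAction.stabilizer (T : Subgroup G) q₀ = C.subgroupOf (T : Subgroup G) := by
    ext t
    rw [MulAction.mem_stabilizer_iff, Subgroup.mem_subgroupOf]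
    change (t : G) • (QuotientGroup.mk 1 : G ⧸ C) = QuotientGroup.mk 1 ↔ _
    rw [Cfsg.Agent.Lib.StrongEmb.Basic.smul_mk_eq_mk_iff]
    simp
  have hrel : C.relIndex (T : Subgroup G) = (MulAction.orbit (T : Subgroup G) q₀).ncard := by
    rw [← MulAction.index_stabilizer, hstab]
    rfl
  set D : Subgroup G := (T : Subgroup G) ⊓ C with hDdef
  have hDT : D.relIndex (T : Subgroup G) = C.relIndex (T : Subgroup G) :=
    Subgroup.inf_relIndex_left _ _
  have e1 : ∀ {X Y : Subgroup G}, X ≤ Y → X.relIndex Y * Nat.card X = Nat.card Y := by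
    intro X Y hXY
    have := Subgroup.relIndex_mul_relIndex ⊥ X Y bot_le hXY
    rw [Subgroup.relIndex_bot_left, Subgroup.relIndex_bot_left] at this
    rw [mul_comm]
    exact this
  have h1 := e1 (X := D) (Y := (T : Subgroup G)) inf_le_left
  have h2 := e1 (X := D) (Y := C) inf_le_right
  have hD2 : IsPGroup 2 D := T.2.to_le inf_le_left
  obtain ⟨i, hi⟩ := hD2.exists_card_eq
  have hDpos : 0 < Nat.card D := Nat.card_pos
  have h3 : Nat.card D * 2 ^ a ∣ Nat.card (T : Subgroup G) := by
    have h4 : Nat.card D * 2 ^ a ∣ Nat.card (T : Subgroup G) * (T : Subgroup G).index := by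
      rw [hcardT, ← hcardG]
      exact Nat.mul_dvd_mul_right (Dvd.intro_left _ h2) _
    refine Nat.Coprime.dvd_of_dvd_mul_right ?_ h4
    rw [hi, ← pow_add]
    exact Nat.Coprime.pow_left _ hTidx
  have h5 : 2 ^ a ∣ D.relIndex (T : Subgroup G) := by
    rw [← h1, mul_comm (Nat.card D) (2 ^ a)] at h3
    exact Nat.dvd_of_mul_dvd_mul_right hDpos h3
  have hrelpos : 0 < D.relIndex (T : Subgroup G) := by
    refine Nat.pos_of_ne_zero fun h0 => ?_
    rw [h0, zero_mul] at h1
    exact (Nat.card_pos (α := (T : Subgroup G))).ne h1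
  have h6 : (MulAction.orbit (T : Subgroup G) q₀).ncard ≤ 2 ^ a := by
    rw [← hx]
    exact Set.ncard_le_card _
  have h7 : D.relIndex (T : Subgroup G) = 2 ^ a := by
    refine le_antisymm ?_ (Nat.le_of_dvd hrelpos h5)
    rw [hDT, hrel]
    exact h6
  have horbit : MulAction.orbit (T : Subgroup G) q₀ = Set.univ := by
    refine Set.eq_of_subset_of_ncard_le (Set.subset_univ _) ?_
    rw [Set.ncard_univ, ← hrel, ← hDT, h7, ← hx]
    rfl
  have hfac : ∀ g : G, ∃ t ∈ (T : Subgroup G), ∃ c ∈ C, g = t * c := by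
    intro g
    have hg : (QuotientGroup.mk g : G ⧸ C) ∈ MulAction.orbit (T : Subgroup G) q₀ := by
      rw [horbit]; trivial
    obtain ⟨t, ht⟩ := hg
    have h8 : (QuotientGroup.mk (t : G) : G ⧸ C) = QuotientGroup.mk g := by
      have h9 : (t : G) • (QuotientGroup.mk 1 : G ⧸ C) = QuotientGroup.mk g := ht
      have h10 : (t : G) • (QuotientGroup.mk 1 : G ⧸ C) = QuotientGroup.mk ((t : G) * 1) := rfl
      rw [mul_one] at h10
      rw [← h10, h9]
    have h11 := QuotientGroup.eq.mp h8
    exact ⟨t, t.2, _, h11, by group⟩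
  -- the index of `D` in `C` is odd
  have hDC : D.relIndex C = (T : Subgroup G).index := by
    have h12 : Nat.card D * 2 ^ a * D.relIndex C = Nat.card D * 2 ^ a * (T : Subgroup G).index := by
      calc Nat.card D * 2 ^ a * D.relIndex C = (D.relIndex C * Nat.card D) * 2 ^ a := by ring
        _ = Nat.card (T : Subgroup G) * (T : Subgroup G).index := by rw [h2, hcardG, hcardT]
        _ = Nat.card D * 2 ^ a * (T : Subgroup G).index := by
          rw [← h1, h7]; ring
    exact Nat.eq_of_mul_eq_mul_left (Nat.mul_pos hDpos (by positivity)) h12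
  -- the core
  set E : Subgroup G := C.normalCore with hEdef
  have hEn : E.Normal := inferInstance
  have hEC : E ≤ C := Subgroup.normalCore_le C
  have hxcomm : ∀ z ∈ C, x * z = z * x := by
    intro z hz
    rw [hCdef, Subgroup.mem_centralizer_iff] at hz
    exact hz x rfl
  have hDE : D ≤ E := by
    rintro c ⟨hcT, hcC⟩ b
    obtain ⟨t, ht, c₁, hc₁, hb⟩ := hfac b⁻¹
    have hw : b⁻¹ * x * b = t * x * t⁻¹ := by
      have hb' : b = (t * c₁)⁻¹ := by rw [← hb, inv_inv]
      calc b⁻¹ * x * b = t * (c₁ * x) * c₁⁻¹ * t⁻¹ := by rw [hb']; group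
        _ = t * (x * c₁) * c₁⁻¹ * t⁻¹ := by rw [hxcomm c₁ hc₁]
        _ = t * x * t⁻¹ := by group
    have hc1 := hTab c hcT t ht
    have hc2 := hxcomm c hcC
    have hcw : c * (b⁻¹ * x * b) = (b⁻¹ * x * b) * c := by
      rw [hw]
      calc c * (t * x * t⁻¹) = (c * t) * x * t⁻¹ := by group
        _ = t * c * x * t⁻¹ := by rw [hc1]
        _ = t * (c * x) * t⁻¹ := by group
        _ = t * (x * c) * t⁻¹ := by rw [hc2]
        _ = t * x * (c * t⁻¹) := by group
        _ = t * x * (t⁻¹ * c) := by
          have : Commute c t⁻¹ := (show Commute c t from hc1).inv_right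
          rw [this.eq]
        _ = t * x * t⁻¹ * c := by group
    rw [hCdef, Subgroup.mem_centralizer_iff]
    intro h hh
    rw [Set.mem_singleton_iff] at hh
    rw [hh]
    calc x * (b * c * b⁻¹) = b * ((b⁻¹ * x * b) * c) * b⁻¹ := by group
      _ = b * (c * (b⁻¹ * x * b)) * b⁻¹ := by rw [hcw]
      _ = b * c * b⁻¹ * x := by group
  have hEodd : Odd (E.relIndex C) := by
    have h13 : E.relIndex C ∣ D.relIndex C := Subgroup.relIndex_dvd_of_le_left C hDE
    rw [hDC] at h13
    refine Odd.of_dvd_nat ?_ h13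
    rw [← Nat.not_even_iff_odd, even_iff_two_dvd]
    exact T.not_dvd_index
  -- the quotient is solvable
  let π := QuotientGroup.mk' E
  have hHodd : Odd (Nat.card (C.map π)) := by
    let f : C →* G ⧸ E := π.comp C.subtype
    have hker : f.ker = E.subgroupOf C := by
      ext y
      change π (y : G) = 1 ↔ (y : G) ∈ E
      rw [QuotientGroup.mk'_apply, QuotientGroup.eq_one_iff]
    have hidx : (E.subgroupOf C).index = Nat.card f.range := by
      rw [← hker, Subgroup.index_ker]
    have hrange : f.range = C.map π := by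
      rw [MonoidHom.range_comp, Subgroup.range_subtype]
    rw [← hrange, ← hidx]
    exact hEodd
  have hcfg : Config ((T : Subgroup G).map π) (C.map π) := by
    refine ⟨T.2.map _, ?_, hHodd, ?_⟩
    · rintro _ ⟨u, hu, rfl⟩ _ ⟨v, hv, rfl⟩
      rw [← map_mul, ← map_mul, hTab u hu v hv]
    · intro g
      obtain ⟨g, rfl⟩ := QuotientGroup.mk'_surjective E g
      obtain ⟨t, ht, c, hc, rfl⟩ := hfac g
      exact ⟨_, ⟨t, ht, rfl⟩, _, ⟨c, hc, rfl⟩, map_mul _ _ _⟩
  have hQ : Group.IsSolvable (G ⧸ E) := solvable_of_factor hFT hcfg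
  -- elements of `E` commute with all conjugates of `x`
  have hEcomm : ∀ e ∈ E, ∀ g : G, e * (g * x * g⁻¹) = (g * x * g⁻¹) * e := by
    intro e he g
    have h14 : g⁻¹ * e * g⁻¹⁻¹ ∈ C := he g⁻¹
    rw [inv_inv] at h14
    have h15 := hxcomm _ h14
    calc e * (g * x * g⁻¹) = g * ((g⁻¹ * e * g) * x) * g⁻¹ := by group
      _ = g * (x * (g⁻¹ * e * g)) * g⁻¹ := by rw [← h15]
      _ = (g * x * g⁻¹) * e := by group
  -- the commutator subgroup of `E`
  set L : Subgroup G := ⁅E, E⁆ with hLdef
  have hLn : L.Normal := Subgroup.commutator_normal E E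
  have hLE : L ≤ E := Subgroup.commutator_le_left E E
  have hLC : L ≤ C := hLE.trans hEC
  have hmemcomm : ∀ w ∈ L, ∃ w' ∈ commutator E, (w' : G) = w := by
    intro w hw
    rw [hLdef, ← Subgroup.map_subtype_commutator] at hw
    obtain ⟨w', hw', rfl⟩ := hw
    exact ⟨w', hw', rfl⟩
  have hB : ∀ w ∈ L, (∀ e ∈ E, e * w = w * e) → w = 1 := by
    intro w hw hwc
    obtain ⟨w', hw', rfl⟩ := hmemcomm w hw
    have hcen : w' ∈ Subgroup.center E := by
      rw [Subgroup.mem_center_iff]
      intro e
      exact Subtype.ext (hwc _ e.2)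
    have := eq_one_of_central_of_commutator (fun p _ P => sylow_abelian_subgroup hA E p P) hcen hw'
    rw [this]
    rfl
  have hsplit : ∀ y ∈ L, ∀ g : G, g ∈ Subgroup.centralizer ({x * y} : Set G) →
      g ∈ Subgroup.centralizer ({y} : Set G) := by
    intro y hy g hg
    rw [Subgroup.mem_centralizer_iff] at hg
    have hg1 := hg (x * y) rfl
    set w := x⁻¹ * (g * x * g⁻¹) with hw
    have hw2 : w = y * (g * y * g⁻¹)⁻¹ := by
      have h16 : (g * x * g⁻¹) * (g * y * g⁻¹) = x * y := by
        calc (g * x * g⁻¹) * (g * y * g⁻¹) = (g * (x * y)) * g⁻¹ := by group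
          _ = ((x * y) * g) * g⁻¹ := by rw [← hg1]
          _ = x * y := by group
      rw [hw]
      calc x⁻¹ * (g * x * g⁻¹) = x⁻¹ * ((g * x * g⁻¹) * (g * y * g⁻¹)) * (g * y * g⁻¹)⁻¹ := by group
        _ = x⁻¹ * (x * y) * (g * y * g⁻¹)⁻¹ := by rw [h16]
        _ = y * (g * y * g⁻¹)⁻¹ := by group
    have hwL : w ∈ L := by
      rw [hw2]
      exact L.mul_mem hy (L.inv_mem (hLn.conj_mem y hy g))
    have hwc : ∀ e ∈ E, e * w = w * e := by
      intro e he
      have h17 := hEcomm e he 1
      simp only [one_mul, inv_one, mul_one] at h17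
      have h18 := hEcomm e he g
      have h19 : Commute e x⁻¹ := (show Commute e x from h17).inv_right
      rw [hw]
      calc e * (x⁻¹ * (g * x * g⁻¹)) = (e * x⁻¹) * (g * x * g⁻¹) := by group
        _ = x⁻¹ * e * (g * x * g⁻¹) := by rw [h19.eq]
        _ = x⁻¹ * (e * (g * x * g⁻¹)) := by group
        _ = x⁻¹ * ((g * x * g⁻¹) * e) := by rw [h18]
        _ = x⁻¹ * (g * x * g⁻¹) * e := by group
    have hw1 := hB w hwL hwc
    have h20 : y = g * y * g⁻¹ := by
      rw [hw2] at hw1
      exact mul_inv_eq_one.mp hw1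
    rw [Subgroup.mem_centralizer_iff]
    intro h hh
    rw [Set.mem_singleton_iff] at hh
    rw [hh]
    exact (eq_mul_inv_iff_mul_eq.mp h20)
  have hsplit' : ∀ y ∈ L, ∀ g : G, g ∈ Subgroup.centralizer ({x * y} : Set G) → g ∈ C := by
    intro y hy g hg
    rw [Subgroup.mem_centralizer_iff] at hg
    have hg1 := hg (x * y) rfl
    set w := x⁻¹ * (g * x * g⁻¹) with hw
    have hw2 : w = y * (g * y * g⁻¹)⁻¹ := by
      have h16 : (g * x * g⁻¹) * (g * y * g⁻¹) = x * y := by
        calc (g * x * g⁻¹) * (g * y * g⁻¹) = (g * (x * y)) * g⁻¹ := by group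
          _ = ((x * y) * g) * g⁻¹ := by rw [← hg1]
          _ = x * y := by group
      rw [hw]
      calc x⁻¹ * (g * x * g⁻¹) = x⁻¹ * ((g * x * g⁻¹) * (g * y * g⁻¹)) * (g * y * g⁻¹)⁻¹ := by group
        _ = x⁻¹ * (x * y) * (g * y * g⁻¹)⁻¹ := by rw [h16]
        _ = y * (g * y * g⁻¹)⁻¹ := by group
    have hwL : w ∈ L := by
      rw [hw2]
      exact L.mul_mem hy (L.inv_mem (hLn.conj_mem y hy g))
    have hwc : ∀ e ∈ E, e * w = w * e := by
      intro e he
      have h17 := hEcomm e he 1
      simp only [one_mul, inv_one, mul_one] at h17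
      have h18 := hEcomm e he g
      have h19 : Commute e x⁻¹ := (show Commute e x from h17).inv_right
      rw [hw]
      calc e * (x⁻¹ * (g * x * g⁻¹)) = (e * x⁻¹) * (g * x * g⁻¹) := by group
        _ = x⁻¹ * e * (g * x * g⁻¹) := by rw [h19.eq]
        _ = x⁻¹ * (e * (g * x * g⁻¹)) := by group
        _ = x⁻¹ * ((g * x * g⁻¹) * e) := by rw [h18]
        _ = x⁻¹ * (g * x * g⁻¹) * e := by group
    have hw1 := hB w hwL hwc
    have h21 : x = g * x * g⁻¹ := by
      rw [hw] at hw1
      exact inv_mul_eq_one.mp hw1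
    rw [hCdef, Subgroup.mem_centralizer_iff]
    intro h hh
    rw [Set.mem_singleton_iff] at hh
    rw [hh]
    exact (eq_mul_inv_iff_mul_eq.mp h21)
  -- odd classes in `C`
  have hodd1 : ∀ y ∈ L, ¬ 2 ∣ (Subgroup.centralizer ({y} : Set G)).relIndex C := by
    intro y hy h2dvd
    have hle : Subgroup.centralizer ({x * y} : Set G) ≤ C := hsplit' y hy
    have hle2 : Subgroup.centralizer ({x * y} : Set G) ≤ Subgroup.centralizer ({y} : Set G) :=
      hsplit y hy
    have h22 := Subgroup.relIndex_mul_index hle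
    have h23 : (Subgroup.centralizer ({y} : Set G)).relIndex C ∣
        (Subgroup.centralizer ({x * y} : Set G)).relIndex C :=
      Subgroup.relIndex_dvd_of_le_left C hle2
    apply hmax (x * y)
    rw [← h22, hx, pow_succ, mul_comm (2 ^ a) 2]
    exact Nat.mul_dvd_mul_right (h2dvd.trans h23) _
  -- odd classes in `L`
  have hoddL : ∀ y : L, ¬ 2 ∣ (Subgroup.centralizer ({y} : Set L)).index := by
    intro y h2dvd
    have h24 : Subgroup.centralizer ({y} : Set L) =
        (Subgroup.centralizer ({(y : G)} : Set G)).subgroupOf L := by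
      ext z
      rw [Subgroup.mem_subgroupOf, Subgroup.mem_centralizer_iff, Subgroup.mem_centralizer_iff]
      constructor
      · intro h w hw
        rw [Set.mem_singleton_iff] at hw
        rw [hw]
        exact congrArg Subtype.val (h y rfl)
      · intro h w hw
        rw [Set.mem_singleton_iff] at hw
        rw [hw]
        exact Subtype.ext (h y rfl)
    rw [h24] at h2dvd
    have h25 : (Subgroup.centralizer ({(y : G)} : Set G)).relIndex L ∣
        (Subgroup.centralizer ({(y : G)} : Set G)).relIndex C :=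
      relIndex_dvd_of_normal _ L C hLC
    exact hodd1 y y.2 (dvd_trans h2dvd h25)
  obtain ⟨P⟩ : Nonempty (Sylow 2 L) := inferInstance
  have hLs : Group.IsSolvable L := solvable_of_odd_classes hFT P (sylow_abelian_subgroup hA L 2 P) hoddL
  -- `E` is solvable
  have hAb : Group.IsSolvable (Abelianization E) := inferInstance
  have hEs : Group.IsSolvable E := by
    refine Group.isSolvable_of_ker_le_range (Subgroup.inclusion hLE) (Abelianization.of (G := E)) ?_
    rw [Abelianization.ker_of]
    intro e he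
    have h26 : (e : G) ∈ L := by
      rw [hLdef, ← Subgroup.map_subtype_commutator]
      exact ⟨e, he, rfl⟩
    exact ⟨⟨e, h26⟩, rfl⟩
  refine Group.isSolvable_of_ker_le_range E.subtype (QuotientGroup.mk' E) ?_
  rw [QuotientGroup.ker_mk', Subgroup.range_subtype]

end Cfsg.Agent.Lib.AbelTwo.Main
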